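import Cfsg.Agent.SPOR.F4

/-! Finite checks in `GL₄(2)`. -/

set_option autoImplicit false

namespace CL.JJ.H

open F4 (w v)

namespace Tri

abbrev V2 : Type := F4 × F4
def nf {β : Type} : F4 → (F4 → β) → β
  | .o, k => k .o | .l, k => k .l | .w, k => k .w | .v, k => k .v
theorem nf_eq {β : Type} (x : F4) (k : F4 → β) : nf x k = k x := by cases x <;> rfl
def pa : V2 → V2 → V2
  | (x, y), (x', y') => (F4.add x x', F4.add y y')
theorem pa_eq (p q : V2) : pa p q = p + q := rfl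
def sc : F4 → V2 → V2 → V2
  | .o, _, _ => (.o, .o) | .l, a, _ => a | .w, _, b => b | .v, a, b => pa a b
def ap (a b c d : V2) : V2 → V2
  | (x, y) => nf x fun x => nf y fun y => pa (sc x a b) (sc y c d)
def sm : V2 → V2
  | (x, y) => (F4.mul w x, F4.mul w y)
def tm : V2 → V2
  | (x, y) => nf x fun x => (x, F4.add x y)
def lin (a c : V2) : V2 → V2 := ap a (sm a) c (sm c)

def all4 (p : F4 → Bool) : Bool := p .o && p .l && p .w && p .v
def allV (p : V2 → Bool) : Bool := all4 fun x => all4 fun y => p (x, y)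
def allB (p : V2 → Bool) : Bool := p (.l, .o) && p (w, .o) && p (.o, .l) && p (.o, w)
def eq4 : F4 → F4 → Bool
  | .o, .o => true | .l, .l => true | .w, .w => true | .v, .v => true | _, _ => false
def eqV : V2 → V2 → Bool
  | (x, y), (x', y') => eq4 x x' && eq4 y y'
abbrev B4 : List V2 := [(.l, .o), (w, .o), (.o, .l), (.o, w)]

theorem all4_iff {p : F4 → Bool} : all4 p = true ↔ ∀ x, p x = true := by
  simp only [all4, Bool.and_eq_true]
  exact ⟨fun h x => by cases x; exacts [h.1.1.1, h.1.1.2, h.1.2, h.2], fun h => ⟨⟨⟨h _, h _⟩, h _⟩, h _⟩⟩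
theorem allV_iff {p : V2 → Bool} : allV p = true ↔ ∀ x, p x = true := by simp [allV, all4_iff]
theorem allB_iff {p : V2 → Bool} : allB p = true ↔ ∀ x ∈ B4, p x = true := by simp [allB, and_assoc]
theorem eqV_iff {p q : V2} : eqV p q = true ↔ p = q := by revert p q; decide

abbrev E (n : ℕ) (f : V2 → V2) : Prop := (∀ p ∈ B4, f^[n] p = p) → ∀ p ∈ B4, f^[3] p = p
abbrev Ln (m : F4) (f : V2 → V2) : Prop :=
  ∀ x, (∃ y, f (x, m * x) = (y, m * y)) ∧ ∃ y, f (x, (m + 1) * x) = (y, (m + 1) * y)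
abbrev Q (f g : V2 → V2) : Prop := (∀ p, f p = g p) ∨ ∀ p, f p = g (g p)

def imp (a b : Bool) : Bool := !a || b
theorem imp_iff {a b : Bool} : imp a b = true ↔ (a = true → b = true) := by revert a b; decide
def eB (n : ℕ) (f : V2 → V2) : Bool := imp (allB fun p => eqV (f^[n] p) p) (allB fun p => eqV (f^[3] p) p)
def qB (f : V2 → V2) : Bool := allB fun p => eqV (f (f p)) (pa (f p) p)
def r1 (f : V2 → V2) : Bool := imp (eB 12 (f ∘ sm)) (imp (eB 12 (f ∘ f ∘ sm)) (imp (eB 12 (f ∘ f ∘ sm ∘ f ∘ sm))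
  (allV fun p => eqV (f (sm p)) (sm (f p)))))
def c1 (f : V2 → V2) : Bool := imp (qB f) (r1 f)
def inj (f : V2 → V2) : Bool := allV fun p => imp (eqV (f p) 0) (eqV p 0)
def r3 (f g : V2 → V2) : Bool := imp (inj g) (imp (eB 6 g) (imp (eB 6 (g ∘ f)) (imp (eB 6 (g ∘ f ∘ f))
  (imp (eB 6 (g ∘ f ∘ f ∘ f)) (imp (eB 6 (g ∘ f ∘ f ∘ f ∘ f)) (allV fun p => eqV (g p) p))))))
def s3 (f g : V2 → V2) : Bool := allV (fun p => imp (eqV (g p) p) (eqV p 0)) || r3 f g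
def t3 (f : V2 → V2) : Bool :=
  decide (∀ p, p ≠ 0 → ∃ (i : Fin 3) (j : Fin 5), sm^[i] (f^[j] (0, 1)) = p) && allV fun a => allV fun c => s3 f (lin a c)
def c3 (f : V2 → V2) : Bool := imp (inj f) (imp (eB 6 f) (imp (eB 6 (f ∘ f ∘ tm ∘ f ∘ tm))
  (imp (eB 6 (f ∘ f ∘ tm ∘ f ∘ tm ∘ f ∘ tm ∘ f ∘ tm)) (decide (Ln 0 f) || decide (Ln w f) || t3 f))))

theorem chk1' : (allV fun a => allV fun b => allV fun c => allV fun d => c1 (ap a b c d)) = true := by
  decide +kernel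
theorem chk3' : (allV fun a => allV fun c => c3 (lin a c)) = true := by decide +kernel

theorem chk1 : ∀ a b c d, (∀ p ∈ B4, ap a b c d (ap a b c d p) = ap a b c d p + p) → E 12 (ap a b c d ∘ sm) →
    E 12 (ap a b c d ∘ ap a b c d ∘ sm) → E 12 (ap a b c d ∘ ap a b c d ∘ sm ∘ ap a b c d ∘ sm) →
    ∀ p, ap a b c d (sm p) = sm (ap a b c d p) := by
  simpa only [allV_iff, allB_iff, eqV_iff, imp_iff, c1, qB, r1, eB, pa_eq] using chk1'

set_option synthInstance.maxSize 2000 in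
theorem chk2 : ∀ a c, (∀ p ∈ B4, lin a c (lin a c p) = lin a c p + p) → ∀ a' c',
    (∀ p ∈ B4, lin a' c' (lin a' c' p) = lin a' c' p + p) → (∀ p ∈ B4, lin a c (lin a' c' p) = lin a' c' (lin a c p)) →
    Q (lin a c) sm ∨ Q (lin a' c') sm ∨ Q (lin a' c') (lin a c) := by decide +kernel

theorem chk3 : ∀ a c, (∀ p, lin a c p = 0 → p = 0) → E 6 (lin a c) → E 6 (lin a c ∘ lin a c ∘ tm ∘ lin a c ∘ tm) →
    E 6 (lin a c ∘ lin a c ∘ tm ∘ lin a c ∘ tm ∘ lin a c ∘ tm ∘ lin a c ∘ tm) →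
    (Ln 0 (lin a c) ∨ Ln w (lin a c)) ∨
    (∀ p, p ≠ 0 → ∃ (i : Fin 3) (j : Fin 5), sm^[i] ((lin a c)^[j] (0, 1)) = p) ∧ ∀ a' c',
      (∀ p, lin a' c' p = p → p = 0) ∨ ((∀ p, lin a' c' p = 0 → p = 0) → E 6 (lin a' c') →
      E 6 (lin a' c' ∘ lin a c) → E 6 (lin a' c' ∘ lin a c ∘ lin a c) → E 6 (lin a' c' ∘ lin a c ∘ lin a c ∘ lin a c) →
      E 6 (lin a' c' ∘ lin a c ∘ lin a c ∘ lin a c ∘ lin a c) → ∀ p, lin a' c' p = p) := by
  simpa only [allV_iff, allB_iff, eqV_iff, imp_iff, c3, t3, s3, r3, inj, eB, Bool.or_eq_true, Bool.and_eq_true,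
    decide_eq_true_eq] using chk3'

end Tri

end CL.JJ.H
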